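import Cfsg.Agent.Lib.KC.Defs
import Cfsg.Agent.Lib.SL2.GroupAux

/-! Frobenius' theorem on the number of solutions of `x ^ d = 1`. -/

set_option autoImplicit false
open Finset Classical

namespace Cfsg.Agent.KCP

universe u

/-- the number of solutions of `x ^ d = 1` -/
noncomputable def nsol (G : Type*) [Group G] (d : ℕ) : ℕ := Nat.card {x : G // x ^ d = 1}

section
variable {G : Type*} [Group G]

theorem nsol_eq [Fintype G] (d : ℕ) : nsol G d = (univ.filter fun x : G => x ^ d = 1).card := by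
  rw [nsol, Nat.card_eq_fintype_card, Fintype.card_subtype]

theorem totient_dvd [Fintype G] (n : ℕ) :
    Nat.totient n ∣ (univ.filter fun x : G => orderOf x = n).card := by
  rw [card_eq_sum_card_image (fun x => Subgroup.zpowers x)]
  refine dvd_sum fun H hH => ?_
  obtain ⟨x, hx, rfl⟩ := mem_image.1 hH
  have hx' := (mem_filter.1 hx).2
  rw [← IsCyclic.card_orderOf_eq_totient (α := Subgroup.zpowers x) (d := n)
    (by rw [Fintype.card_zpowers, hx'])]
  apply dvd_of_eq
  refine card_bij (fun a _ => a.1) (fun a ha => ?_) (fun a _ b _ e => Subtype.ext e) fun y hy => ?_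
  · have h1 : orderOf a.1 = n := by rw [Subgroup.orderOf_coe]; exact (mem_filter.1 ha).2
    refine mem_filter.2 ⟨mem_filter.2 ⟨mem_univ _, h1⟩, ?_⟩
    exact Subgroup.eq_of_le_of_card_ge (Subgroup.zpowers_le.2 a.2)
      (by rw [Nat.card_zpowers, Nat.card_zpowers, h1, hx'])
  · obtain ⟨h1, h2⟩ := mem_filter.1 hy
    refine ⟨⟨y, h2 ▸ Subgroup.mem_zpowers y⟩, mem_filter.2 ⟨mem_univ _, ?_⟩, rfl⟩
    rw [← Subgroup.orderOf_coe]; exact (mem_filter.1 h1).2

theorem nsol_succ [Finite G] {p : ℕ} (hp : p.Prime) (a : ℕ) :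
    nsol G (p ^ (a + 1)) ≡ nsol G (p ^ a) [MOD p ^ a] := by
  have := Fintype.ofFinite G
  have := Fact.mk hp
  have h1 : (univ.filter fun x : G => x ^ p ^ (a + 1) = 1) =
      (univ.filter fun x : G => x ^ p ^ a = 1) ∪ univ.filter fun x : G => orderOf x = p ^ (a + 1) := by
    ext x
    simp only [mem_filter, mem_univ, true_and, mem_union]
    constructor
    · intro h
      by_cases e : x ^ p ^ a = 1
      · exact Or.inl e
      · exact Or.inr (orderOf_eq_prime_pow e h)
    · rintro (h | h)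
      · rw [pow_succ, pow_mul, h, one_pow]
      · rw [← h, pow_orderOf_eq_one]
  rw [nsol_eq, nsol_eq, h1, card_union_of_disjoint]
  · refine (Nat.modEq_iff_dvd' (Nat.le_add_right _ _)).2 ?_ |>.symm
    rw [Nat.add_sub_cancel_left]
    refine Dvd.dvd.trans ?_ (totient_dvd _)
    rw [Nat.totient_prime_pow_succ hp]
    exact dvd_mul_right _ _
  · rw [disjoint_filter]
    intro x _ h e
    have := orderOf_dvd_of_pow_eq_one h
    rw [e, Nat.pow_dvd_pow_iff_le_right hp.one_lt] at this
    omega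

theorem nsol_modEq [Finite G] {p : ℕ} (hp : p.Prime) {a b : ℕ} (h : b ≤ a) :
    nsol G (p ^ a) ≡ nsol G (p ^ b) [MOD p ^ b] := by
  induction a, h using Nat.le_induction with
  | base => rfl
  | succ a h ih => exact ((nsol_succ hp a).of_dvd (pow_dvd_pow p h)).trans ih

theorem nsol_conj {a b : G} (h : IsConj a b) (d : ℕ) :
    nsol (Subgroup.centralizer ({a} : Set G)) d = nsol (Subgroup.centralizer ({b} : Set G)) d := by
  obtain ⟨g, rfl⟩ := isConj_iff.1 h
  refine Nat.card_congr ⟨fun x => ⟨⟨g * x.1.1 * g⁻¹, ?_⟩, ?_⟩, fun x => ⟨⟨g⁻¹ * x.1.1 * g, ?_⟩, ?_⟩,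
    fun x => ?_, fun x => ?_⟩
  · have := Subgroup.mem_centralizer_singleton_iff.1 x.1.2
    rw [Subgroup.mem_centralizer_singleton_iff]
    calc _ = g * (x.1.1 * a) * g⁻¹ := by group
      _ = _ := by rw [this]; group
  · have := congrArg Subtype.val x.2
    apply Subtype.ext
    change (g * x.1.1 * g⁻¹) ^ d = 1
    rw [conj_pow]
    simp only [SubmonoidClass.coe_pow, OneMemClass.coe_one] at this
    rw [this]; group
  · have := Subgroup.mem_centralizer_singleton_iff.1 x.1.2
    rw [Subgroup.mem_centralizer_singleton_iff]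
    calc _ = g⁻¹ * (x.1.1 * (g * a * g⁻¹)) * g := by group
      _ = _ := by rw [this]; group
  · have := congrArg Subtype.val x.2
    apply Subtype.ext
    change (g⁻¹ * x.1.1 * g) ^ d = 1
    simp only [SubmonoidClass.coe_pow, OneMemClass.coe_one] at this
    rw [show g⁻¹ * x.1.1 * g = g⁻¹ * x.1.1 * g⁻¹⁻¹ by group, conj_pow, this]; group
  · ext; simp [mul_assoc]
  · ext; simp [mul_assoc]

theorem dvd_sum_of_class [Fintype G] {S : Finset G} (hS : ∀ a ∈ S, ∀ b, IsConj a b → b ∈ S)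
    {f : G → ℕ} (hf : ∀ a b, IsConj a b → f a = f b) {k : ℕ}
    (h : ∀ a ∈ S, k ∣ (Subgroup.centralizer ({a} : Set G)).index * f a) : k ∣ ∑ a ∈ S, f a := by
  rw [← sum_fiberwise_of_maps_to (t := S.image ConjClasses.mk) (g := ConjClasses.mk)
    fun a ha => mem_image_of_mem _ ha]
  refine dvd_sum fun c hc => ?_
  obtain ⟨a, ha, rfl⟩ := mem_image.1 hc
  rw [sum_congr rfl (g := fun _ => f a) fun b hb =>
    hf _ _ (ConjClasses.mk_eq_mk_iff_isConj.1 (mem_filter.1 hb).2), sum_const, smul_eq_mul]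
  refine (h a ha).trans (dvd_of_eq ?_)
  rw [← SL2.card_carrier_eq_index, Nat.card_eq_fintype_card, Fintype.card_subtype]
  symm
  congr 2
  ext b
  simp only [mem_filter, mem_univ, true_and, ConjClasses.mem_carrier_iff_mk_eq]
  exact ⟨fun e => e.2, fun e => ⟨hS a ha b (ConjClasses.mk_eq_mk_iff_isConj.1 e).symm, e⟩⟩

theorem nsol_mul [Fintype G] {u v : ℕ} (h : u.Coprime v) :
    nsol G (u * v) = ∑ z ∈ univ.filter fun z : G => z ^ v = 1,
      nsol (Subgroup.centralizer ({z} : Set G)) u := by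
  obtain ⟨e, h1, h2⟩ := Nat.chineseRemainder h 0 1
  obtain ⟨i, rfl⟩ := (Nat.modEq_zero_iff_dvd).1 h1
  have hv : ∀ z : G, z ^ v = 1 → z ^ (u * i) = z := fun z hz => by
    rw [(pow_eq_pow_iff_modEq.2 (h2.of_dvd (orderOf_dvd_of_pow_eq_one hz)) : z ^ _ = z ^ 1), pow_one]
  rw [nsol_eq, card_eq_sum_card_fiberwise (f := fun x => x ^ (u * i))
    (t := univ.filter fun z : G => z ^ v = 1) fun x hx => by
      have := (mem_filter.1 hx).2
      simp only [coe_filter, mem_univ, true_and, Set.mem_ofPred_eq]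
      rw [← pow_mul, mul_right_comm, pow_mul, this, one_pow]]
  refine sum_congr rfl fun z hz => ?_
  have hz' := (mem_filter.1 hz).2
  rw [nsol_eq]
  symm
  refine card_bij (fun y _ => y.1 * z) (fun y hy => ?_)
    (fun a _ b _ e => Subtype.ext (mul_right_cancel e)) fun x hx => ?_
  · have h3 : Commute y.1 z := Subgroup.mem_centralizer_singleton_iff.1 y.2
    have h4 : y.1 ^ u = 1 := congrArg Subtype.val (by simpa only [mem_filter, mem_univ, true_and] using hy)
    simp only [mem_filter, mem_univ, true_and]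
    rw [h3.mul_pow, h3.mul_pow, pow_mul, pow_mul y.1, h4, mul_comm u v, pow_mul, hz', hv z hz']
    simp
  · simp only [mem_filter, mem_univ, true_and] at hx
    obtain ⟨h3, rfl⟩ := hx
    have h4 : Commute x (x ^ (u * i))⁻¹ := (Commute.self_pow x _).inv_right
    refine ⟨⟨x * (x ^ (u * i))⁻¹, Subgroup.mem_centralizer_singleton_iff.2
      ((Commute.self_pow x _).mul_left (Commute.refl _).inv_left)⟩,
      ?_, by simp⟩
    simp only [mem_filter, mem_univ, true_and]
    apply Subtype.ext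
    change (x * (x ^ (u * i))⁻¹) ^ u = 1
    rw [h4.mul_pow, inv_pow, mul_inv_eq_one, ← pow_mul, mul_comm _ u, pow_mul x u (u * i),
      hv _ (by rw [← pow_mul, h3])]

theorem dvd_index_mul {p a c i n : ℕ} (hp : p.Prime) (hc : c ≠ 0) (h : p ^ a ∣ i * c)
    (h' : ∀ b, b ≤ a → p ^ b ∣ c → p ^ b ∣ n) : p ^ a ∣ i * n := by
  obtain ⟨b, m, hm, rfl⟩ := Nat.exists_eq_pow_mul_and_not_dvd hc p hp.ne_one
  by_cases e : b ≤ a
  · rw [← mul_assoc] at h
    exact (((hp.coprime_iff_not_dvd.2 hm).pow_left a).dvd_of_dvd_mul_right h).trans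
      (mul_dvd_mul_left i (h' b e (dvd_mul_right _ _)))
  · exact (h' a le_rfl ((pow_dvd_pow p (by omega)).mul_right m)).mul_left i

end

theorem frob_pow {p : ℕ} (hp : p.Prime) (N : ℕ) : ∀ (G : Type u) [Group G] [Finite G],
    Nat.card G = N → ∀ a b, b ≤ a → p ^ b ∣ N → p ^ b ∣ nsol G (p ^ a) := by
  induction N using Nat.strong_induction_on with | _ N ih => ?_
  intro G _ _ hN a b hab hb
  have := Fintype.ofFinite G
  have := Fact.mk hp
  have hN0 : N ≠ 0 := hN ▸ Nat.card_pos.ne'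
  obtain ⟨n, m, hm, rfl⟩ := Nat.exists_eq_pow_mul_and_not_dvd hN0 p hp.ne_one
  have hc := (hp.coprime_iff_not_dvd.2 hm)
  have hbn : b ≤ n :=
    (Nat.pow_dvd_pow_iff_le_right hp.one_lt).1 ((hc.pow_left b).dvd_of_dvd_mul_right hb)
  suffices h : p ^ n ∣ nsol G (p ^ n) from
    ((nsol_modEq hp hab).trans (nsol_modEq hp hbn).symm).dvd_iff dvd_rfl |>.2
      ((pow_dvd_pow p hbn).trans h)
  have h1 := nsol_mul (G := G) (hc.pow_left n)
  have h2 : nsol G (p ^ n * m) = p ^ n * m := by
    rw [nsol, Nat.card_congr (Equiv.subtypeUnivEquiv fun x => by rw [← hN, pow_card_eq_one']), hN]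
  rw [h2, ← sum_filter_add_sum_filter_not _ (· ∈ Subgroup.center G)] at h1
  have h3 : p ^ n ∣ ∑ z ∈ (univ.filter fun z : G => z ^ m = 1).filter (· ∉ Subgroup.center G),
      nsol (Subgroup.centralizer ({z} : Set G)) (p ^ n) := by
    refine dvd_sum_of_class (fun x hx y e => ?_) (fun x y e => nsol_conj e _) fun z hz => ?_
    · obtain ⟨g, rfl⟩ := isConj_iff.1 e
      simp only [mem_filter, mem_univ, true_and] at hx ⊢
      refine ⟨by rw [conj_pow, hx.1]; group, fun e => hx.2 ?_⟩
      have := (Subgroup.normal_of_characteristic (Subgroup.center G)).conj_mem _ e g⁻¹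
      simpa [mul_assoc] using this
    · refine dvd_index_mul hp (c := Nat.card (Subgroup.centralizer ({z} : Set G))) Nat.card_pos.ne'
        (by rw [Subgroup.index_mul_card, hN]; exact dvd_mul_right _ _) fun b hb hb' =>
        ih _ ?_ _ rfl _ _ hb hb'
      rw [← hN]
      refine lt_of_le_of_ne (Subgroup.card_le_card_group _) fun e => (mem_filter.1 hz).2 ?_
      rw [Subgroup.mem_center_iff]
      intro g
      exact Subgroup.mem_centralizer_singleton_iff.1
        ((Subgroup.card_eq_iff_eq_top _).1 e ▸ Subgroup.mem_top g)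
  have h4 := (Nat.dvd_add_left h3).1 (h1 ▸ dvd_mul_right _ _)
  rw [sum_congr rfl (g := fun _ => nsol G (p ^ n)) fun z hz => by
    have e : Subgroup.centralizer ({z} : Set G) = ⊤ := eq_top_iff.2 fun g _ =>
      Subgroup.mem_centralizer_singleton_iff.2 (Subgroup.mem_center_iff.1 (mem_filter.1 hz).2 g)
    rw [e]
    exact Nat.card_congr (Subgroup.topEquiv.toEquiv.subtypeEquiv fun x => by
      rw [← Subgroup.topEquiv.injective.eq_iff, map_pow, map_one]; rfl), sum_const, smul_eq_mul] at h4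
  refine (Nat.Coprime.pow_left n (hp.coprime_iff_not_dvd.2 fun e => hm ?_)).dvd_of_dvd_mul_left h4
  let K : Subgroup G :=
    { carrier := {z | z ^ m = 1 ∧ z ∈ Subgroup.center G}
      mul_mem' := fun {x y} hx hy => ⟨by
        rw [Commute.mul_pow (Subgroup.mem_center_iff.1 hy.2 x), hx.1, hy.1, one_mul],
        mul_mem hx.2 hy.2⟩
      one_mem' := ⟨one_pow _, one_mem _⟩
      inv_mem' := fun {x} hx => ⟨by rw [inv_pow, hx.1, inv_one], inv_mem hx.2⟩ }
  obtain ⟨z, hz⟩ := exists_prime_orderOf_dvd_card' (G := K) p (by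
    convert e
    rw [Nat.card_eq_fintype_card, Fintype.card_subtype]
    congr 1
    ext z
    simp only [mem_filter, mem_univ, true_and]
    rfl)
  rw [← hz, ← Subgroup.orderOf_coe]
  exact orderOf_dvd_of_pow_eq_one z.2.1

theorem frob {G : Type*} [Group G] [Finite G] {d : ℕ} (hd : d ∣ Nat.card G) :
    d ∣ Nat.card {x : G // x ^ d = 1} := by
  have := Fintype.ofFinite G
  refine (Nat.dvd_iff_prime_pow_dvd_dvd _ _).2 fun p k hp hk => ?_
  have hd0 : d ≠ 0 := ne_zero_of_dvd_ne_zero Nat.card_pos.ne' hd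
  obtain ⟨a, s, hs, rfl⟩ := Nat.exists_eq_pow_mul_and_not_dvd hd0 p hp.ne_one
  have hc := (hp.coprime_iff_not_dvd.2 hs)
  refine ((hc.pow_left k).dvd_of_dvd_mul_right hk).trans ?_
  change p ^ a ∣ nsol G _
  rw [nsol_mul (hc.pow_left a)]
  refine dvd_sum_of_class (fun x hx y e => ?_) (fun x y e => nsol_conj e _) fun z _ => ?_
  · obtain ⟨g, rfl⟩ := isConj_iff.1 e
    simp only [mem_filter, mem_univ, true_and] at hx ⊢
    rw [conj_pow, hx]; group
  · exact dvd_index_mul hp (c := Nat.card (Subgroup.centralizer ({z} : Set G))) Nat.card_pos.ne'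
      (by rw [Subgroup.index_mul_card]; exact (dvd_mul_right _ _).trans hd) fun b hb hb' =>
      frob_pow hp _ _ rfl _ _ hb hb'

end Cfsg.Agent.KCP
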